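import Mathlib
import Cfsg.Agent.Lib.Helper81.CS3.NGDefs
import Cfsg.Agent.Lib.Helper71.CS3.Basics

/-!
# CS3 (S4284), part NG, package [MIX]

`m` prime: a type (i) and a type (ii) non-central `m`-element cannot coexist.
-/

set_option autoImplicit false

namespace Cfsg.Agent.Lib.Helper4.CS3

open Subgroup Cfsg.Agent.Lib.Helper81.CS3

universe u

variable {G : Type u} [Group G]

theorem orderOf_conj4 (k b : G) : orderOf (k * b * k⁻¹) = orderOf b := by
  have := MulEquiv.orderOf_eq (MulAut.conj k) b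
  rwa [MulAut.conj_apply] at this

theorem idx_conj4 (k g : G) : idx (k * g * k⁻¹) = idx g := by
  have h : centralizer ({k * g * k⁻¹} : Set G) =
      (centralizer ({g} : Set G)).map ((MulAut.conj k : G ≃* G) : G →* G) := by
    ext y
    simp only [mem_map, mem_centralizer_iff, Set.mem_singleton_iff, forall_eq,
      MonoidHom.coe_coe, MulAut.conj_apply]
    constructor
    · intro hy
      refine ⟨k⁻¹ * y * k, ?_, by group⟩
      calc g * (k⁻¹ * y * k) = k⁻¹ * (k * g * k⁻¹ * y) * k := by group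
        _ = k⁻¹ * (y * (k * g * k⁻¹)) * k := by rw [hy]
        _ = k⁻¹ * y * k * g := by group
    · rintro ⟨x, hx, rfl⟩
      calc k * g * k⁻¹ * (k * x * k⁻¹) = k * (g * x) * k⁻¹ := by group
        _ = k * (x * g) * k⁻¹ := by rw [hx]
        _ = k * x * k⁻¹ * (k * g * k⁻¹) := by group
  show (centralizer ({k * g * k⁻¹} : Set G)).index = (centralizer ({g} : Set G)).index
  rw [h]
  exact Subgroup.index_map_equiv _ (MulAut.conj k)

theorem not_center_conj4 {x : G} (k : G) (h : k * x * k⁻¹ ∈ center G) : x ∈ center G := by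
  have h5 := (inferInstance : (center G).Normal).conj_mem _ h k⁻¹
  simpa [mul_assoc] using h5

theorem pm_conj4 {m s : ℕ} {b : G} (hb : PM m s b) (k : G) : PM m s (k * b * k⁻¹) := by
  obtain ⟨h1, h2, ⟨j, hj⟩, h4⟩ := hb
  exact ⟨h1, h2, ⟨j, by rw [orderOf_conj4, hj]⟩, fun h => h4 (not_center_conj4 k h)⟩

/-- Sylow conjugation inside a centralizer of index `m`: if all `m`-elements of `C(b₀)` lie in
`C(y)` and `i(y) = m`, every `m`-element of `C(y)` is `C(y)`-conjugate into `C(b₀)`. -/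
theorem conj_into4 [Finite G] {m n : ℕ} (hyp : Hyp G m n) (hNG : NG G m) (hm : m.Prime)
    (hStr : PkgStr.{u}) {b₀ y g : G} (hb₀ : PM m m b₀) (hy : idx y = m)
    (hsub : ∀ v : G, Commute v b₀ → (∃ k : ℕ, orderOf v = m ^ k) → Commute v y)
    (hgy : Commute g y) (hg : ∃ k : ℕ, orderOf g = m ^ k) :
    ∃ k : G, Commute k y ∧ Commute (k * g * k⁻¹) b₀ := by
  haveI : Fact m.Prime := ⟨hm⟩
  obtain ⟨-, Sb, Ab, hSb, -, -, hcard, ⟨j, hj⟩, hcop⟩ := hStr m n hyp hNG m b₀ hb₀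
  have hSbK : Sb ≤ centralizer ({y} : Set G) := by
    intro v hv
    rw [hSb] at hv
    rw [mem_centralizer_iff]
    intro h hh
    rw [Set.mem_singleton_iff] at hh
    subst hh
    exact (hsub v hv.1 hv.2).eq.symm
  have hrel : Sb.relIndex (centralizer ({y} : Set G)) = Nat.card Ab * n := by
    have h1 : Nat.card Sb * Sb.index = Nat.card G := Sb.card_mul_index
    have h2 : Sb.relIndex (centralizer ({y} : Set G)) * (centralizer ({y} : Set G)).index =
        Sb.index := Subgroup.relIndex_mul_index hSbK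
    have h3 : (centralizer ({y} : Set G)).index = m := hy
    have hpos : 0 < Nat.card Sb := Nat.card_pos
    have hmpos : 0 < m := hm.pos
    rw [h3] at h2
    have h4 : Nat.card Sb * (Sb.relIndex (centralizer ({y} : Set G)) * m) =
        Nat.card Sb * (Nat.card Ab * n * m) := by
      rw [h2, h1, ← hcard]
      ring
    have h5 := Nat.eq_of_mul_eq_mul_left hpos h4
    exact Nat.eq_of_mul_eq_mul_right hmpos h5
  have hnd : ¬ m ∣ (Sb.subgroupOf (centralizer ({y} : Set G))).index := by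
    show ¬ m ∣ Sb.relIndex (centralizer ({y} : Set G))
    rw [hrel]
    intro hd
    rcases hm.dvd_mul.mp hd with h | h
    · exact (hm.coprime_iff_not_dvd.mp hcop.symm) h
    · exact (hm.coprime_iff_not_dvd.mp hyp.2.2.2.1) h
  have hP : IsPGroup m (Sb.subgroupOf (centralizer ({y} : Set G))) :=
    (IsPGroup.of_card hj).comap_subtype
  have hgK : g ∈ centralizer ({y} : Set G) := by
    rw [mem_centralizer_iff]
    intro h hh
    rw [Set.mem_singleton_iff] at hh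
    subst hh
    exact hgy.eq.symm
  obtain ⟨kg, hkg⟩ := hg
  have hZ : IsPGroup m (zpowers (⟨g, hgK⟩ : centralizer ({y} : Set G))) := by
    apply IsPGroup.of_card (n := kg)
    rw [Nat.card_zpowers, Subgroup.orderOf_mk, hkg]
  obtain ⟨Q, hQ⟩ := hZ.exists_le_sylow
  obtain ⟨k, hk⟩ := MulAction.exists_smul_eq (centralizer ({y} : Set G)) Q (hP.toSylow hnd)
  refine ⟨(k : G), ?_, ?_⟩
  · have h1 := k.2
    rw [mem_centralizer_iff] at h1
    exact (h1 y rfl).symm
  · have h1 : (⟨g, hgK⟩ : centralizer ({y} : Set G)) ∈ (Q : Subgroup _) := hQ (mem_zpowers _)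
    have h2 : ((k • Q : Sylow m (centralizer ({y} : Set G))) : Subgroup _) =
        Sb.subgroupOf (centralizer ({y} : Set G)) := by
      rw [hk]
      rfl
    rw [Sylow.coe_subgroup_smul] at h2
    have h3 : k * ⟨g, hgK⟩ * k⁻¹ ∈ Sb.subgroupOf (centralizer ({y} : Set G)) := by
      rw [← h2, Subgroup.mem_pointwise_smul_iff_inv_smul_mem]
      simpa [MulAut.smul_def, mul_assoc] using h1
    have h4 : (k : G) * g * (k : G)⁻¹ ∈ Sb := Subgroup.mem_subgroupOf.mp h3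
    rw [hSb] at h4
    exact h4.1

/-- CLAIM A: a type (i) element commutes with no non-central element of `A_{b₂}`,
`b₂` of type (ii). -/
theorem claimA4 [Finite G] {m n : ℕ} (hyp : Hyp G m n) (hNG : NG G m) (hm : m.Prime)
    (hStr : PkgStr.{u}) {b2 : G} (hb2 : PM m m b2) (hII : TypeII m n m b2)
    {b : G} (hb : PM m m b) (hbI : ¬ TypeII m n m b)
    {u : G} (hub2 : Commute u b2) (huo : (orderOf u).Coprime m) (hub : Commute u b) :
    u ∈ center G := by
  by_contra hu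
  have hidx : idx u = m := by
    rcases Cfsg.Agent.Lib.Helper71.CS3.idx_cases hyp u with h | h | h
    · exact absurd ((Cfsg.Agent.Lib.Helper71.CS3.idx_eq_one_iff u).mp h) hu
    · exact h
    · exact absurd h (hII u hub2 huo)
  obtain ⟨-, Sb2, Ab2, -, hAb2, hAb2c, -, -, -⟩ := hStr m n hyp hNG m b2 hb2
  have huA : u ∈ Ab2 := (hAb2 u).mpr ⟨hub2, huo⟩
  obtain ⟨k, -, hkb⟩ := conj_into4 hyp hNG hm hStr hb2 hidx
    (fun v hv _ => hAb2c u huA v hv) hub.symm hb.2.2.1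
  have hb' : PM m m (k * b * k⁻¹) := pm_conj4 hb k
  unfold TypeII at hbI
  push Not at hbI
  obtain ⟨u0, hu0b, hu0o, hu0i⟩ := hbI
  obtain ⟨-, Sb', Ab', -, hAb', hAb'c, -, -, -⟩ := hStr m n hyp hNG m _ hb'
  have h1 : k * u0 * k⁻¹ ∈ Ab' :=
    (hAb' _).mpr ⟨(Commute.conj_iff k).mpr hu0b, by rw [orderOf_conj4]; exact hu0o⟩
  have h2 : Commute b2 (k * u0 * k⁻¹) := hAb'c _ h1 b2 hkb.symm
  exact hII (k * u0 * k⁻¹) h2.symm (by rw [orderOf_conj4]; exact hu0o)
    (by rw [idx_conj4]; exact hu0i)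

/-- **[MIX]** -/
theorem pkgMix (hSyl : PkgSyl.{u}) (hStr : PkgStr.{u}) (hNC : PkgNC.{u}) (hAb : PkgAb.{u})
    (hNor : PkgNor.{u}) (hStepA : PkgStepA.{u}) (hStepB : PkgStepB.{u}) : PkgMix.{u} := by
  intro G _ _ m n hyp hNG hm b1 b2 hb1 hb1I hb2 hb2II
  have habc : AbC b1 := hAb m n hyp hNG m b1 hb1 hb1I
  obtain ⟨hidx1, -⟩ := hStr m n hyp hNG m b1 hb1
  obtain ⟨x1, r1, k1, -, -, -, hx1b, hx1i⟩ := hStepA m n hyp hNG b1 hidx1 habc
  obtain ⟨-, Sb2, Ab2, -, hAb2, -, -, -, -⟩ := hStr m n hyp hNG m b2 hb2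
  obtain ⟨x, hxb2, hxo, hxZ⟩ := hNC m n hyp hNG m b2 hb2
  have hxA : x ∈ Ab2 := (hAb2 x).mpr ⟨hxb2, hxo⟩
  have hconjA : ∀ (u g : G), u ∈ Ab2 → g * u * g⁻¹ ∈ Ab2 := by
    intro u g hu
    obtain ⟨h1, h2⟩ := (hAb2 u).mp hu
    exact (hAb2 _).mpr ⟨hNor m n hyp hNG hm b2 hb2 hb2II u g h1 h2,
      by rw [orderOf_conj4]; exact h2⟩
  obtain ⟨g, hgPM, hgw⟩ := hSyl m n hyp m hm dvd_rfl (x * x1)
  have hz1 : x⁻¹ * (g * x * g⁻¹) = x1 * (g * x1 * g⁻¹)⁻¹ := by
    have h : g * (x * x1) * g⁻¹ = x * x1 := by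
      rw [hgw.eq]
      group
    have h' : (g * x * g⁻¹) * (g * x1 * g⁻¹) = x * x1 := by
      rw [← h]
      group
    calc x⁻¹ * (g * x * g⁻¹)
        = x⁻¹ * ((g * x * g⁻¹) * (g * x1 * g⁻¹)) * (g * x1 * g⁻¹)⁻¹ := by group
      _ = x⁻¹ * (x * x1) * (g * x1 * g⁻¹)⁻¹ := by rw [h']
      _ = x1 * (g * x1 * g⁻¹)⁻¹ := by group
  have hzA : x⁻¹ * (g * x * g⁻¹) ∈ Ab2 := Ab2.mul_mem (Ab2.inv_mem hxA) (hconjA x g hxA)
  have hzb1 : Commute (x⁻¹ * (g * x * g⁻¹)) b1 := by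
    rw [hz1]
    exact hx1b.mul_left (hStepB m n hyp hNG b1 hidx1 habc x1 g hx1b hx1i).inv_left
  obtain ⟨hzb2, hzo⟩ := (hAb2 _).mp hzA
  have hzZ : x⁻¹ * (g * x * g⁻¹) ∈ center G :=
    claimA4 hyp hNG hm hStr hb2 hb2II hb1 hb1I hzb2 hzo hzb1
  obtain ⟨z, hz⟩ : ∃ z : G, z = x⁻¹ * (g * x * g⁻¹) := ⟨_, rfl⟩
  rw [← hz] at hzZ hzo
  have hgx : g * x * g⁻¹ = x * z := by
    rw [hz]
    group
  have hzpow : ∀ j : ℕ, g ^ j * x * (g ^ j)⁻¹ = x * z ^ j := by
    intro j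
    induction j with
    | zero => simp
    | succ j ih =>
      have hzc : g * z ^ j = z ^ j * g :=
        Subgroup.mem_center_iff.mp ((center G).pow_mem hzZ j) g
      calc g ^ (j + 1) * x * (g ^ (j + 1))⁻¹ = g * (g ^ j * x * (g ^ j)⁻¹) * g⁻¹ := by
            rw [pow_succ']
            group
        _ = g * (x * z ^ j) * g⁻¹ := by rw [ih]
        _ = (g * x * g⁻¹) * (g * z ^ j * g⁻¹) := by group
        _ = (x * z) * (z ^ j * g * g⁻¹) := by rw [hgx, hzc]
        _ = x * z ^ (j + 1) := by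
            rw [pow_succ']
            group
  have hz1' : z = 1 := by
    obtain ⟨kg, hkg⟩ := hgPM.2.2.1
    have h1 := hzpow (orderOf g)
    rw [pow_orderOf_eq_one] at h1
    have h2 : z ^ orderOf g = 1 := by
      have h3 : x * z ^ orderOf g = x * 1 := by
        rw [← h1]
        simp
      exact mul_left_cancel h3
    have h3 : orderOf z ∣ m ^ kg := by
      rw [← hkg]
      exact orderOf_dvd_of_pow_eq_one h2
    have h4 : orderOf z = 1 := Nat.Coprime.eq_one_of_dvd (Nat.Coprime.pow_right kg hzo) h3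
    exact orderOf_eq_one_iff.mp h4
  have hgx' : Commute g x := by
    rw [hz1', mul_one] at hgx
    show g * x = x * g
    calc g * x = g * x * g⁻¹ * g := by group
      _ = x * g := by rw [hgx]
  have hgx1 : Commute g x1 := by
    have h : Commute g (x⁻¹ * (x * x1)) := (hgx'.inv_right).mul_right hgw
    simpa using h
  obtain ⟨k, -, hkb1⟩ := conj_into4 hyp hNG hm hStr hb1 hx1i
    (fun v hv _ => habc v x1 hv hx1b) hgx1 hgPM.2.2.1
  have hg' : PM m m (k * g * k⁻¹) := pm_conj4 hgPM k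
  have hg'I : ¬ TypeII m n m (k * g * k⁻¹) := by
    intro hII'
    have hb1I' := hb1I
    unfold TypeII at hb1I'
    push Not at hb1I'
    obtain ⟨u0, hu0b, hu0o, hu0i⟩ := hb1I'
    exact hII' u0 (habc u0 (k * g * k⁻¹) hu0b hkb1) hu0o hu0i
  have hx' : k * x * k⁻¹ ∈ Ab2 := hconjA x k hxA
  obtain ⟨hx'b2, hx'o⟩ := (hAb2 _).mp hx'
  have hx'g : Commute (k * x * k⁻¹) (k * g * k⁻¹) := (Commute.conj_iff k).mpr hgx'.symm
  have hx'Z : k * x * k⁻¹ ∈ center G :=
    claimA4 hyp hNG hm hStr hb2 hb2II hg' hg'I hx'b2 hx'o hx'g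
  exact hxZ (not_center_conj4 k hx'Z)

end Cfsg.Agent.Lib.Helper4.CS3
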