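import Mathlib
import Cfsg.Agent.Lib.Helper81.CS3.NGDefs
import Cfsg.Agent.Lib.Helper71.CS3.Basics
import Cfsg.Agent.Lib.Helper4.CS3.Mix

/-!
# CS3 (S4284), part NG: packages [I] and [TWO] from one core lemma

`core5`: if for a prime `s ∣ m` every non-central `s`-element is of type (i), contradiction.
-/

set_option autoImplicit false

namespace Cfsg.Agent.Lib.Helper4.CS3

open Subgroup Cfsg.Agent.Lib.Helper81.CS3

universe u

variable {G : Type u} [Group G]

/-- Sylow conjugation inside a centralizer of index `m` (prime `s ∣ m`). -/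
theorem conj_into5 [Finite G] {m n : ℕ} (hyp : Hyp G m n) (hNG : NG G m) {s : ℕ} (hs : s.Prime)
    (hsm : s ∣ m) (hStr : PkgStr.{u}) {b₀ y g : G} (hb₀ : PM m s b₀) (hy : idx y = m)
    (hsub : ∀ v : G, Commute v b₀ → (∃ k : ℕ, orderOf v = s ^ k) → Commute v y)
    (hgy : Commute g y) (hg : ∃ k : ℕ, orderOf g = s ^ k) :
    ∃ k : G, Commute k y ∧ Commute (k * g * k⁻¹) b₀ := by
  haveI : Fact s.Prime := ⟨hs⟩
  obtain ⟨-, Sb, Ab, hSb, -, -, hcard, ⟨j, hj⟩, hcop⟩ := hStr m n hyp hNG s b₀ hb₀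
  have hSbK : Sb ≤ centralizer ({y} : Set G) := by
    intro v hv
    rw [hSb] at hv
    rw [mem_centralizer_iff]
    intro h hh
    rw [Set.mem_singleton_iff] at hh
    subst hh
    exact (hsub v hv.1 hv.2).eq.symm
  have hmpos : 0 < m := by have := hyp.2.1; omega
  have hrel : Sb.relIndex (centralizer ({y} : Set G)) = Nat.card Ab * n := by
    have h1 : Nat.card Sb * Sb.index = Nat.card G := Sb.card_mul_index
    have h2 : Sb.relIndex (centralizer ({y} : Set G)) * (centralizer ({y} : Set G)).index =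
        Sb.index := Subgroup.relIndex_mul_index hSbK
    have h3 : (centralizer ({y} : Set G)).index = m := hy
    have hpos : 0 < Nat.card Sb := Nat.card_pos
    rw [h3] at h2
    have h4 : Nat.card Sb * (Sb.relIndex (centralizer ({y} : Set G)) * m) =
        Nat.card Sb * (Nat.card Ab * n * m) := by
      rw [h2, h1, ← hcard]
      ring
    have h5 := Nat.eq_of_mul_eq_mul_left hpos h4
    exact Nat.eq_of_mul_eq_mul_right hmpos h5
  have hsn : ¬ s ∣ n := hs.coprime_iff_not_dvd.mp (Nat.Coprime.coprime_dvd_left hsm hyp.2.2.2.1)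
  have hnd : ¬ s ∣ (Sb.subgroupOf (centralizer ({y} : Set G))).index := by
    show ¬ s ∣ Sb.relIndex (centralizer ({y} : Set G))
    rw [hrel]
    intro hd
    rcases hs.dvd_mul.mp hd with h | h
    · exact (hs.coprime_iff_not_dvd.mp hcop.symm) h
    · exact hsn h
  have hP : IsPGroup s (Sb.subgroupOf (centralizer ({y} : Set G))) :=
    (IsPGroup.of_card hj).comap_subtype
  have hgK : g ∈ centralizer ({y} : Set G) := by
    rw [mem_centralizer_iff]
    intro h hh
    rw [Set.mem_singleton_iff] at hh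
    subst hh
    exact hgy.eq.symm
  obtain ⟨kg, hkg⟩ := hg
  have hZ : IsPGroup s (zpowers (⟨g, hgK⟩ : centralizer ({y} : Set G))) := by
    apply IsPGroup.of_card (n := kg)
    rw [Nat.card_zpowers, Subgroup.orderOf_mk, hkg]
  obtain ⟨Q, hQ⟩ := hZ.exists_le_sylow
  obtain ⟨k, hk⟩ := MulAction.exists_smul_eq (centralizer ({y} : Set G)) Q (hP.toSylow hnd)
  refine ⟨(k : G), ?_, ?_⟩
  · have h1 := k.2
    rw [mem_centralizer_iff] at h1
    exact (h1 y rfl).symm
  · have h1 : (⟨g, hgK⟩ : centralizer ({y} : Set G)) ∈ (Q : Subgroup _) := hQ (mem_zpowers _)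
    have h2 : ((k • Q : Sylow s (centralizer ({y} : Set G))) : Subgroup _) =
        Sb.subgroupOf (centralizer ({y} : Set G)) := by
      rw [hk]
      rfl
    rw [Sylow.coe_subgroup_smul] at h2
    have h3 : k * ⟨g, hgK⟩ * k⁻¹ ∈ Sb.subgroupOf (centralizer ({y} : Set G)) := by
      rw [← h2, Subgroup.mem_pointwise_smul_iff_inv_smul_mem]
      simpa [MulAut.smul_def, mul_assoc] using h1
    have h4 : (k : G) * g * (k : G)⁻¹ ∈ Sb := Subgroup.mem_subgroupOf.mp h3
    rw [hSb] at h4
    exact h4.1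

/-- The core: a prime `s ∣ m` all of whose non-central `s`-elements are of type (i) cannot
exist. -/
theorem core5 [Finite G] {m n : ℕ} (hyp : Hyp G m n) (hNG : NG G m) {s : ℕ} (hs : s.Prime)
    (hsm : s ∣ m) (hSyl : PkgSyl.{u}) (hStr : PkgStr.{u}) (hAb : PkgAb.{u})
    (hStepA : PkgStepA.{u}) (hStepB : PkgStepB.{u})
    (hall : ∀ b : G, PM m s b → ¬ TypeII m n s b) : False := by
  haveI : Fact s.Prime := ⟨hs⟩
  have hmpos : 0 < m := by have := hyp.2.1; omega
  have hsn : ¬ s ∣ n := hs.coprime_iff_not_dvd.mp (Nat.Coprime.coprime_dvd_left hsm hyp.2.2.2.1)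
  -- `b`
  obtain ⟨b, hb, -⟩ := hSyl m n hyp s hs hsm 1
  obtain ⟨hidxb, Sb, Ab, hSb, -, -, hcard, ⟨j, hj⟩, hcop⟩ := hStr m n hyp hNG s b hb
  have habcb : AbC b := hAb m n hyp hNG s b hb (hall b hb)
  -- the Sylow subgroup `S ≥ S_b` and `g ∈ S \ S_b`
  obtain ⟨S, hSbS⟩ := (IsPGroup.of_card hj).exists_le_sylow
  have hSbidx : Sb.index = Nat.card Ab * (m * n) := by
    have h1 : Nat.card Sb * Sb.index = Nat.card G := Sb.card_mul_index
    have hpos : 0 < Nat.card Sb := Nat.card_pos
    have h4 : Nat.card Sb * Sb.index = Nat.card Sb * (Nat.card Ab * (m * n)) := by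
      rw [h1, ← hcard]
      ring
    exact Nat.eq_of_mul_eq_mul_left hpos h4
  obtain ⟨g, hgS, hgSb⟩ : ∃ g : G, g ∈ S ∧ g ∉ Sb := by
    by_contra hcon
    push Not at hcon
    have heq : (S : Subgroup G) = Sb := le_antisymm hcon hSbS
    have h1 : ¬ s ∣ (S : Subgroup G).index := S.not_dvd_index
    apply h1
    rw [heq, hSbidx]
    exact Dvd.dvd.mul_left (Dvd.dvd.mul_right hsm n) _
  have hgord : ∃ k : ℕ, orderOf g = s ^ k := by
    obtain ⟨k, hk⟩ := IsPGroup.iff_orderOf.mp S.isPGroup' ⟨g, hgS⟩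
    exact ⟨k, by rw [← hk, Subgroup.orderOf_mk]⟩
  have hgb : ¬ Commute g b := fun h => hgSb ((hSb g).mpr ⟨h, hgord⟩)
  have hgPM : PM m s g := by
    refine ⟨hs, hsm, hgord, ?_⟩
    intro hc
    exact hgb (Subgroup.mem_center_iff.mp hc b).symm
  obtain ⟨hidxg, -⟩ := hStr m n hyp hNG s g hgPM
  have habcg : AbC g := hAb m n hyp hNG s g hgPM (hall g hgPM)
  -- (★) `C(b) ∩ C(g) ≤ Z(G)`
  have hstar : ∀ u : G, Commute u b → Commute u g → u ∈ center G := by
    intro u hub hug
    by_contra hu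
    have hle : centralizer ({b} : Set G) ≤ centralizer ({u} : Set G) := by
      intro v hv
      rw [mem_centralizer_iff] at hv ⊢
      intro h hh
      rw [Set.mem_singleton_iff] at hh
      subst hh
      have hvb : Commute v b := (hv b rfl).symm
      exact (habcb v h hvb hub).eq.symm
    have hgu : g ∈ centralizer ({u} : Set G) := by
      rw [mem_centralizer_iff]
      intro h hh
      rw [Set.mem_singleton_iff] at hh
      subst hh
      exact hug.eq
    rcases Cfsg.Agent.Lib.Helper71.CS3.idx_cases hyp u with h | h | h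
    · exact hu ((Cfsg.Agent.Lib.Helper71.CS3.idx_eq_one_iff u).mp h)
    · -- `i(u) = m`
      have hSbK : Sb ≤ centralizer ({u} : Set G) := by
        intro v hv
        exact hle (by
          rw [mem_centralizer_iff]
          intro h' hh
          rw [Set.mem_singleton_iff] at hh
          subst hh
          exact (((hSb v).mp hv).1).eq.symm)
      have hTK : Sb ⊔ zpowers g ≤ centralizer ({u} : Set G) :=
        sup_le hSbK ((zpowers_le).mpr hgu)
      have hTS : Sb ⊔ zpowers g ≤ (S : Subgroup G) := sup_le hSbS ((zpowers_le).mpr hgS)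
      obtain ⟨i, hi⟩ := IsPGroup.iff_card.mp (S.isPGroup'.to_le hTS)
      have hlt : Nat.card Sb < Nat.card (Sb ⊔ zpowers g : Subgroup G) := by
        by_contra hnot
        push Not at hnot
        have heq : Sb = Sb ⊔ zpowers g := Subgroup.eq_of_le_of_card_ge le_sup_left hnot
        apply hgSb
        rw [heq]
        exact (le_sup_right : zpowers g ≤ Sb ⊔ zpowers g) (mem_zpowers g)
      rw [hi, hj] at hlt
      have hji : j < i := (Nat.pow_lt_pow_iff_right hs.one_lt).mp hlt
      have hdvd : s ^ (j + 1) ∣ Nat.card (centralizer ({u} : Set G)) := by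
        refine Dvd.dvd.trans ?_ (Subgroup.card_dvd_of_le hTK)
        rw [hi]
        exact pow_dvd_pow s hji
      have hK : Nat.card (centralizer ({u} : Set G)) = s ^ j * (Nat.card Ab * n) := by
        have h1 : Nat.card (centralizer ({u} : Set G)) * (centralizer ({u} : Set G)).index =
            Nat.card G := Subgroup.card_mul_index _
        have h3 : (centralizer ({u} : Set G)).index = m := h
        rw [h3, ← hcard, hj] at h1
        have h4 : Nat.card (centralizer ({u} : Set G)) * m = s ^ j * (Nat.card Ab * n) * m := by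
          rw [h1]
          ring
        exact Nat.eq_of_mul_eq_mul_right hmpos h4
      rw [hK, pow_succ] at hdvd
      have h5 : s ∣ Nat.card Ab * n :=
        (Nat.mul_dvd_mul_iff_left (pow_pos hs.pos j)).mp hdvd
      rcases hs.dvd_mul.mp h5 with h6 | h6
      · exact (hs.coprime_iff_not_dvd.mp hcop.symm) h6
      · exact hsn h6
    · -- `i(u) = mn`
      have h2 : (centralizer ({b} : Set G)).relIndex (centralizer ({u} : Set G)) *
          (centralizer ({u} : Set G)).index = (centralizer ({b} : Set G)).index :=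
        Subgroup.relIndex_mul_index hle
      have h3 : (centralizer ({u} : Set G)).index = m * n := h
      have h4 : (centralizer ({b} : Set G)).index = m * n := hidxb
      rw [h3, h4] at h2
      have hmn : 0 < m * n := by
        have := hyp.2.2.1
        positivity
      have h5 : (centralizer ({b} : Set G)).relIndex (centralizer ({u} : Set G)) = 1 := by
        have h6 : (centralizer ({b} : Set G)).relIndex (centralizer ({u} : Set G)) * (m * n) =
            1 * (m * n) := by rw [h2, one_mul]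
        exact Nat.eq_of_mul_eq_mul_right hmn h6
      have h7 := Subgroup.relIndex_eq_one.mp h5 hgu
      rw [mem_centralizer_iff] at h7
      exact hgb (h7 b rfl).symm
  -- `x`, `x'`
  obtain ⟨x, r, kx, hr, hrm, hxo, hxb, hxi⟩ := hStepA m n hyp hNG b hidxb habcb
  obtain ⟨x', r', kx', -, -, -, hx'g, hx'i⟩ := hStepA m n hyp hNG g hidxg habcg
  obtain ⟨q, hqPM, hqw⟩ := hSyl m n hyp s hs hsm (x * x')
  have hz1 : x⁻¹ * (q * x * q⁻¹) = x' * (q * x' * q⁻¹)⁻¹ := by
    have h : q * (x * x') * q⁻¹ = x * x' := by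
      rw [hqw.eq]
      group
    have h' : (q * x * q⁻¹) * (q * x' * q⁻¹) = x * x' := by
      rw [← h]
      group
    calc x⁻¹ * (q * x * q⁻¹)
        = x⁻¹ * ((q * x * q⁻¹) * (q * x' * q⁻¹)) * (q * x' * q⁻¹)⁻¹ := by group
      _ = x⁻¹ * (x * x') * (q * x' * q⁻¹)⁻¹ := by rw [h']
      _ = x' * (q * x' * q⁻¹)⁻¹ := by group
  have hzb : Commute (x⁻¹ * (q * x * q⁻¹)) b :=
    hxb.inv_left.mul_left (hStepB m n hyp hNG b hidxb habcb x q hxb hxi)
  have hzg : Commute (x⁻¹ * (q * x * q⁻¹)) g := by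
    rw [hz1]
    exact hx'g.mul_left (hStepB m n hyp hNG g hidxg habcg x' q hx'g hx'i).inv_left
  have hzZ : x⁻¹ * (q * x * q⁻¹) ∈ center G := hstar _ hzb hzg
  obtain ⟨z, hz⟩ : ∃ z : G, z = x⁻¹ * (q * x * q⁻¹) := ⟨_, rfl⟩
  rw [← hz] at hzZ
  have hqx : q * x * q⁻¹ = x * z := by
    rw [hz]
    group
  have hzpow : ∀ i : ℕ, q ^ i * x * (q ^ i)⁻¹ = x * z ^ i := by
    intro i
    induction i with
    | zero => simp
    | succ i ih =>
      have hzc : q * z ^ i = z ^ i * q :=
        Subgroup.mem_center_iff.mp ((center G).pow_mem hzZ i) q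
      calc q ^ (i + 1) * x * (q ^ (i + 1))⁻¹ = q * (q ^ i * x * (q ^ i)⁻¹) * q⁻¹ := by
            rw [pow_succ']
            group
        _ = q * (x * z ^ i) * q⁻¹ := by rw [ih]
        _ = (q * x * q⁻¹) * (q * z ^ i * q⁻¹) := by group
        _ = (x * z) * (z ^ i * q * q⁻¹) := by rw [hqx, hzc]
        _ = x * z ^ (i + 1) := by
            rw [pow_succ']
            group
  have hz1' : z = 1 := by
    obtain ⟨kq, hkq⟩ := hqPM.2.2.1
    have h1 := hzpow (orderOf q)
    rw [pow_orderOf_eq_one] at h1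
    have h2 : z ^ orderOf q = 1 := by
      have h3 : x * z ^ orderOf q = x * 1 := by
        rw [← h1]
        simp
      exact mul_left_cancel h3
    have h3 : orderOf z ∣ s ^ kq := by
      rw [← hkq]
      exact orderOf_dvd_of_pow_eq_one h2
    have hxz : Commute x z := (Subgroup.mem_center_iff.mp hzZ x)
    have h4 : z ^ orderOf x = 1 := by
      have h5 : (x * z) ^ orderOf x = 1 := by
        rw [← hqx, conj_pow, pow_orderOf_eq_one]
        group
      rw [hxz.mul_pow, pow_orderOf_eq_one, one_mul] at h5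
      exact h5
    have h5 : orderOf z ∣ r ^ kx := by
      rw [← hxo]
      exact orderOf_dvd_of_pow_eq_one h4
    have hsr : s ≠ r := fun h => hrm (h ▸ hsm)
    have hcop2 : (s ^ kq).Coprime (r ^ kx) :=
      Nat.Coprime.pow kq kx ((Nat.coprime_primes hs hr).mpr hsr)
    have h6 : orderOf z = 1 := Nat.eq_one_of_dvd_coprimes hcop2 h3 h5
    exact orderOf_eq_one_iff.mp h6
  have hqx' : Commute q x := by
    rw [hz1', mul_one] at hqx
    show q * x = x * q
    calc q * x = q * x * q⁻¹ * q := by group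
      _ = x * q := by rw [hqx]
  have hqx'' : Commute q x' := by
    have h : Commute q (x⁻¹ * (x * x')) := (hqx'.inv_right).mul_right hqw
    simpa using h
  obtain ⟨k, -, hkg⟩ := conj_into5 hyp hNG hs hsm hStr hgPM hx'i
    (fun v hv _ => habcg v x' hv hx'g) hqx'' hqPM.2.2.1
  have hq' : PM m s (k * q * k⁻¹) := pm_conj4 hqPM k
  have habcq : AbC (k * q * k⁻¹) := hAb m n hyp hNG s _ hq' (hall _ hq')
  have hu1 : Commute (k * x * k⁻¹) (k * q * k⁻¹) := (Commute.conj_iff k).mpr hqx'.symm
  have hu2 : Commute (k * x * k⁻¹) g := habcq _ g hu1 hkg.symm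
  have hu3 : Commute (k * x * k⁻¹) b := hStepB m n hyp hNG b hidxb habcb x k hxb hxi
  have hxZ : x ∈ center G := not_center_conj4 k (hstar _ hu3 hu2)
  have h1 : idx x = 1 := (Cfsg.Agent.Lib.Helper71.CS3.idx_eq_one_iff x).mpr hxZ
  rw [hxi] at h1
  have := hyp.2.1
  omega

/-- **[I]** -/
theorem pkgI (hSyl : PkgSyl.{u}) (hStr : PkgStr.{u}) (hAb : PkgAb.{u})
    (hStepA : PkgStepA.{u}) (hStepB : PkgStepB.{u}) : PkgI.{u} := by
  intro G _ _ m n hyp hNG hm hall
  exact core5 hyp hNG hm dvd_rfl hSyl hStr hAb hStepA hStepB hall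

/-- **[TWO]** -/
theorem pkgTwo (hSyl : PkgSyl.{u}) (hStr : PkgStr.{u}) (hAb : PkgAb.{u})
    (hStepA : PkgStepA.{u}) (hStepB : PkgStepB.{u}) : PkgTwo.{u} := by
  intro G _ _ m n hyp hNG s r hs hr hne hsm hrm
  apply core5 hyp hNG hs hsm hSyl hStr hAb hStepA hStepB
  intro b hb hII
  obtain ⟨b2, hb2, hb2b⟩ := hSyl m n hyp r hr hrm b
  obtain ⟨hidx2, -⟩ := hStr m n hyp hNG r b2 hb2
  obtain ⟨k, hk⟩ := hb2.2.2.1
  refine hII b2 hb2b ?_ hidx2
  rw [hk]
  exact Nat.Coprime.pow_left k ((Nat.coprime_primes hr hs).mpr (Ne.symm hne))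

end Cfsg.Agent.Lib.Helper4.CS3
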